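import Mathlib

/-!
# Coordinates on elementary abelian 2-groups, and generation of `GL_n(2)` by transvections
(helper94, for S5596).
-/

set_option autoImplicit false

namespace Cfsg.Agent.H94

/-- A finite group of exponent 2 and order `2 ^ n` has additive coordinates in `(ZMod 2)^n`. -/
theorem exists_coord {A : Type*} [Group A] [Finite A] (n : ℕ) (h2 : ∀ a : A, a * a = 1)
    (hcard : Nat.card A = 2 ^ n) :
    ∃ E : A ≃ (Fin n → ZMod 2), ∀ a b : A, E (a * b) = E a + E b := by
  have hcomm : ∀ a b : A, a * b = b * a := by
    intro a b
    have h := h2 (a * b)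
    calc a * b = a * (a * b * (a * b)) * b := by rw [h, mul_one]
      _ = (a * a) * (b * a) * (b * b) := by group
      _ = b * a := by rw [h2, h2, one_mul, mul_one]
  letI : CommGroup A := { ‹Group A› with mul_comm := hcomm }
  letI : Module (ZMod 2) (Additive A) := AddCommGroup.zmodModule (n := 2) (by
    intro x
    rw [two_nsmul]
    exact congrArg Additive.ofMul (h2 (Additive.toMul x)))
  have hrank : Module.finrank (ZMod 2) (Additive A) = n := by
    have h := Module.natCard_eq_pow_finrank (K := ZMod 2) (V := Additive A)
    rw [Nat.card_zmod] at h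
    have h' : Nat.card (Additive A) = 2 ^ n := hcard
    rw [h'] at h
    exact (Nat.pow_right_injective (le_refl 2) h).symm
  let b := Module.finBasisOfFinrankEq (ZMod 2) (Additive A) hrank
  refine ⟨Additive.ofMul.trans b.equivFun.toEquiv, ?_⟩
  intro x y
  show b.equivFun (Additive.ofMul (x * y)) = b.equivFun (Additive.ofMul x) + b.equivFun (Additive.ofMul y)
  rw [← map_add]
  rfl

/-- Induction principle: a property of square matrices over `ZMod 2` that holds for the identity
and the elementary transvections and is stable under products holds for all invertible matrices. -/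
theorem gl2_induction {n : ℕ} (P : Matrix (Fin n) (Fin n) (ZMod 2) → Prop)
    (h1 : P 1) (hmul : ∀ A B, P A → P B → P (A * B))
    (htr : ∀ i j : Fin n, i ≠ j → P (Matrix.transvection i j 1))
    (M : Matrix (Fin n) (Fin n) (ZMod 2)) (hM : M.det ≠ 0) : P M := by
  have hz : ∀ c : ZMod 2, c = 0 ∨ c = 1 := by decide
  apply Matrix.diagonal_transvection_induction_of_det_ne_zero P M hM
  · intro D hD
    rw [Matrix.det_diagonal] at hD
    have : D = fun _ => 1 := by
      funext i
      rcases hz (D i) with h | h
      · exfalso
        apply hD
        exact Finset.prod_eq_zero (Finset.mem_univ i) h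
      · exact h
    rw [this]
    have : Matrix.diagonal (fun _ : Fin n => (1 : ZMod 2)) = 1 := Matrix.diagonal_one
    rw [this]
    exact h1
  · intro t
    rcases t with ⟨i, j, hij, c⟩
    rw [Matrix.TransvectionStruct.toMatrix_mk]
    rcases hz c with h | h
    · rw [h, Matrix.transvection_zero]; exact h1
    · rw [h]; exact htr i j hij
  · intro A B _ _ hA hB
    exact hmul A B hA hB

/-- The action of an elementary transvection over `ZMod 2` on a vector. -/
theorem transvection_mulVec {n : ℕ} (i j : Fin n) (v : Fin n → ZMod 2) :
    (Matrix.transvection i j (1 : ZMod 2)).mulVec v = v + (v j) • Pi.single i (1 : ZMod 2) := by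
  unfold Matrix.transvection
  rw [Matrix.add_mulVec, Matrix.one_mulVec, Matrix.single_mulVec_eq, one_mul]

end Cfsg.Agent.H94
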