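import Mathlib
import Cfsg.Prelude.Def_Transfer
import Cfsg.Prelude.Def_Solvable

/-!
# Elementary lemmas on "large extraspecial" 2-subgroups

Helper library of helper94 for S5595-S5598.
-/

set_option autoImplicit false

namespace Cfsg.Agent.H94

open Cfsg
open scoped commutatorElement

variable {G : Type*} [Group G]

/-- The `p`-core is transported by a group isomorphism. -/
theorem pCore_map_equiv {G' : Type*} [Group G'] (p : ℕ) (e : G ≃* G') :
    (Cfsg.pCore p G).map e.toMonoidHom = Cfsg.pCore p G' := by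
  unfold Cfsg.pCore
  rw [sSup_eq_iSup', Subgroup.map_iSup]
  apply le_antisymm
  · apply iSup_le
    rintro ⟨N, hN, hp⟩
    apply le_sSup
    exact ⟨hN.map e.toMonoidHom e.surjective, hp.map e.toMonoidHom⟩
  · apply sSup_le
    rintro N' ⟨hN', hp'⟩
    have h1 : (N'.map e.symm.toMonoidHom).Normal := hN'.map e.symm.toMonoidHom e.symm.surjective
    have h2 : IsPGroup p (N'.map e.symm.toMonoidHom) := hp'.map e.symm.toMonoidHom
    have h3 : (N'.map e.symm.toMonoidHom).map e.toMonoidHom = N' := by
      rw [Subgroup.map_map]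
      have : e.toMonoidHom.comp e.symm.toMonoidHom = MonoidHom.id G' := by
        ext x; simp
      rw [this, Subgroup.map_id]
    rw [← h3]
    exact le_iSup (fun i : {N : Subgroup G | N.Normal ∧ IsPGroup p N} => Subgroup.map e.toMonoidHom i.1)
      ⟨N'.map e.symm.toMonoidHom, h1, h2⟩

/-- The `p`-core of a subgroup `H`, viewed as a subgroup of the ambient group. -/
def coreIn (p : ℕ) (H : Subgroup G) : Subgroup G := (Cfsg.pCore p ↥H).map H.subtype

theorem coreIn_map (p : ℕ) (H : Subgroup G) (φ : G ≃* G) :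
    coreIn p (H.map φ.toMonoidHom) = (coreIn p H).map φ.toMonoidHom := by
  unfold coreIn
  have h := pCore_map_equiv p (φ.subgroupMap H)
  show Subgroup.map (Subgroup.map (φ : G →* G) H).subtype (pCore p ↥(Subgroup.map (φ : G →* G) H)) = _
  rw [← h, Subgroup.map_map, Subgroup.map_map]
  rfl

theorem centralizer_singleton_conj (g x : G) :
    Subgroup.centralizer ({g * x * g⁻¹} : Set G)
      = (Subgroup.centralizer ({x} : Set G)).map (MulAut.conj g).toMonoidHom := by
  ext y
  rw [Subgroup.mem_map_equiv, Subgroup.mem_centralizer_iff, Subgroup.mem_centralizer_iff]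
  simp only [Set.mem_singleton_iff, forall_eq, MulAut.conj_symm_apply]
  constructor
  · intro h
    calc x * (g⁻¹ * y * g) = g⁻¹ * ((g * x * g⁻¹) * y) * g := by group
      _ = g⁻¹ * (y * (g * x * g⁻¹)) * g := by rw [h]
      _ = g⁻¹ * y * g * x := by group
  · intro h
    calc g * x * g⁻¹ * y = g * (x * (g⁻¹ * y * g)) * g⁻¹ := by group
      _ = g * ((g⁻¹ * y * g) * x) * g⁻¹ := by rw [h]
      _ = y * (g * x * g⁻¹) := by group

/-- Conjugation-equivariance of `x ↦ O_p(C_G(x))`. -/
theorem coreIn_centralizer_conj (p : ℕ) (g x : G) :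
    coreIn p (Subgroup.centralizer ({g * x * g⁻¹} : Set G))
      = (coreIn p (Subgroup.centralizer ({x} : Set G))).map (MulAut.conj g).toMonoidHom := by
  rw [centralizer_singleton_conj, coreIn_map]


/-- Elementary identity: `a b a⁻¹ b⁻¹ = c ↔ a b = c (b a)`. -/
theorem comm_expr (a b c : G) : a * b * a⁻¹ * b⁻¹ = c ↔ a * b = c * (b * a) := by
  constructor
  · intro h
    calc a * b = (a * b * a⁻¹ * b⁻¹) * (b * a) := by group
      _ = c * (b * a) := by rw [h]
  · intro h
    calc a * b * a⁻¹ * b⁻¹ = (a * b) * a⁻¹ * b⁻¹ := rfl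
      _ = c * (b * a) * a⁻¹ * b⁻¹ := by rw [h]
      _ = c := by group

/-- The elementary "large extraspecial" package for a subgroup `Qu` attached to an involution `u`:
`u ∈ Qu` is an involution central in `Qu`, commutators of `Qu` lie in `{1, u}`, the centre of `Qu` is
`{1, u}`, `Qu` is normal in `C(u)`, contains every normal 2-subgroup of `C(u)`, contains its own
centralizer, and is a 2-group. -/
def XL (Qu : Subgroup G) (u : G) : Prop :=
  u ∈ Qu ∧ u ≠ 1 ∧ u * u = 1 ∧
  (∀ q ∈ Qu, q * u = u * q) ∧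
  (∀ a ∈ Qu, ∀ b ∈ Qu, a * b * a⁻¹ * b⁻¹ = 1 ∨ a * b * a⁻¹ * b⁻¹ = u) ∧
  (∀ a ∈ Qu, (∀ b ∈ Qu, a * b = b * a) → a = 1 ∨ a = u) ∧
  (∀ h : G, h * u = u * h → ∀ q ∈ Qu, h * q * h⁻¹ ∈ Qu) ∧
  (∀ K : Subgroup G, (∀ k ∈ K, k * u = u * k) →
      (∀ h : G, h * u = u * h → ∀ k ∈ K, h * k * h⁻¹ ∈ K) →
      (∀ k ∈ K, ∃ m : ℕ, k ^ (2 ^ m) = 1) → K ≤ Qu) ∧
  (∀ h : G, (∀ q ∈ Qu, h * q = q * h) → h ∈ Qu) ∧
  (∀ q ∈ Qu, ∃ m : ℕ, q ^ (2 ^ m) = 1)

section XLfields
variable {Qu : Subgroup G} {u : G}

theorem XL.mem (h : XL Qu u) : u ∈ Qu := h.1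
theorem XL.ne_one (h : XL Qu u) : u ≠ 1 := h.2.1
theorem XL.sq (h : XL Qu u) : u * u = 1 := h.2.2.1
theorem XL.central (h : XL Qu u) {q : G} (hq : q ∈ Qu) : q * u = u * q := h.2.2.2.1 q hq
theorem XL.comm (h : XL Qu u) {a b : G} (ha : a ∈ Qu) (hb : b ∈ Qu) :
    a * b * a⁻¹ * b⁻¹ = 1 ∨ a * b * a⁻¹ * b⁻¹ = u := h.2.2.2.2.1 a ha b hb
theorem XL.center (h : XL Qu u) {a : G} (ha : a ∈ Qu) (hc : ∀ b ∈ Qu, a * b = b * a) :
    a = 1 ∨ a = u := h.2.2.2.2.2.1 a ha hc
theorem XL.normal (h : XL Qu u) {t : G} (ht : t * u = u * t) {q : G} (hq : q ∈ Qu) :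
    t * q * t⁻¹ ∈ Qu := h.2.2.2.2.2.2.1 t ht q hq
theorem XL.maximal (h : XL Qu u) (K : Subgroup G) (h1 : ∀ k ∈ K, k * u = u * k)
    (h2 : ∀ t : G, t * u = u * t → ∀ k ∈ K, t * k * t⁻¹ ∈ K)
    (h3 : ∀ k ∈ K, ∃ m : ℕ, k ^ (2 ^ m) = 1) : K ≤ Qu := h.2.2.2.2.2.2.2.1 K h1 h2 h3
theorem XL.selfcent (h : XL Qu u) {t : G} (ht : ∀ q ∈ Qu, t * q = q * t) : t ∈ Qu :=
  h.2.2.2.2.2.2.2.2.1 t ht
theorem XL.two (h : XL Qu u) {q : G} (hq : q ∈ Qu) : ∃ m : ℕ, q ^ (2 ^ m) = 1 :=
  h.2.2.2.2.2.2.2.2.2 q hq

theorem XL.inv_eq (h : XL Qu u) : u⁻¹ = u := inv_eq_of_mul_eq_one_right h.sq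

/-- `u * (u * y) = y`. -/
theorem XL.uu (h : XL Qu u) (y : G) : u * (u * y) = y := by
  rw [← mul_assoc, h.sq, one_mul]

/-- Dichotomy: two elements of `Qu` commute or "anticommute" (commute up to `u`). -/
theorem XL.dich (h : XL Qu u) {a b : G} (ha : a ∈ Qu) (hb : b ∈ Qu) :
    a * b = b * a ∨ a * b = u * (b * a) := by
  rcases h.comm ha hb with h1 | h1
  · left; have := (comm_expr a b 1).1 h1; simpa using this
  · right; exact (comm_expr a b u).1 h1

theorem XL.anti (h : XL Qu u) {a b : G} (ha : a ∈ Qu) (hb : b ∈ Qu) (hne : a * b ≠ b * a) :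
    a * b = u * (b * a) := by
  rcases h.dich ha hb with h1 | h1
  · exact absurd h1 hne
  · exact h1

/-- If `g` anticommutes with `x` and with `s` then it commutes with `x * s`. -/
theorem XL.anti_anti (h : XL Qu u) {g x s : G} (hx : x ∈ Qu)
    (h1 : g * x = u * (x * g)) (h2 : g * s = u * (s * g)) : g * (x * s) = (x * s) * g := by
  calc g * (x * s) = (g * x) * s := by group
    _ = u * (x * g) * s := by rw [h1]
    _ = u * x * (g * s) := by group
    _ = u * x * (u * (s * g)) := by rw [h2]
    _ = u * (x * u) * (s * g) := by group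
    _ = u * (u * x) * (s * g) := by rw [h.central hx]
    _ = (u * u) * (x * s * g) := by group
    _ = (x * s) * g := by rw [h.sq, one_mul]

/-- If `g₁` and `g₃` both anticommute with `s` then `g₁ * g₃` commutes with `s`. -/
theorem XL.anti_mul (h : XL Qu u) {g₁ g₃ s : G} (hg₁ : g₁ ∈ Qu)
    (h1 : g₁ * s = u * (s * g₁)) (h3 : g₃ * s = u * (s * g₃)) : (g₁ * g₃) * s = s * (g₁ * g₃) := by
  calc (g₁ * g₃) * s = g₁ * (g₃ * s) := by group
    _ = g₁ * (u * (s * g₃)) := by rw [h3]
    _ = (g₁ * u) * (s * g₃) := by group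
    _ = (u * g₁) * (s * g₃) := by rw [h.central hg₁]
    _ = u * (g₁ * s) * g₃ := by group
    _ = u * (u * (s * g₁)) * g₃ := by rw [h1]
    _ = (u * u) * (s * (g₁ * g₃)) := by group
    _ = s * (g₁ * g₃) := by rw [h.sq, one_mul]

/-- Squares of elements of `Qu` lie in `{1, u}`. -/
theorem XL.sq_mem (h : XL Qu u) {q : G} (hq : q ∈ Qu) : q * q = 1 ∨ q * q = u := by
  apply h.center (Qu.mul_mem hq hq)
  intro b hb
  rcases h.dich hq hb with h1 | h1
  · calc q * q * b = q * (q * b) := by group
      _ = q * (b * q) := by rw [h1]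
      _ = (q * b) * q := by group
      _ = b * q * q := by rw [h1]
      _ = b * (q * q) := by group
  · have := h.anti_mul hq h1 h1
    exact this

/-- A non-central element of `Qu` is conjugate in `Qu` to its product with `u`. -/
theorem XL.exists_conj (h : XL Qu u) {v : G} (hv : v ∈ Qu) (h1 : v ≠ 1) (hu : v ≠ u) :
    ∃ q ∈ Qu, q * v = u * (v * q) ∧ q * v ≠ v * q := by
  by_contra hcon
  push Not at hcon
  have : ∀ b ∈ Qu, v * b = b * v := by
    intro b hb
    by_contra hne
    have hne' : b * v ≠ v * b := fun e => hne e.symm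
    exact hne' (hcon b hb (h.anti hb hv hne'))
  rcases h.center hv this with h2 | h2
  · exact h1 h2
  · exact hu h2

end XLfields


/-- The hypotheses of the "large extraspecial" statements give the package `XL` for `Q z`. -/
theorem XL_of_hyp (Qz : Subgroup G) (z : G)
    (hQ : Qz = coreIn 2 (Subgroup.centralizer ({z} : Set G)))
    (hz : orderOf z = 2) (hE : Cfsg.IsExtraspecial 2 ↥Qz)
    (hC : Subgroup.centralizer (Qz : Set G) ≤ Qz) : XL Qz z := by
  have hle : Qz ≤ Subgroup.centralizer ({z} : Set G) := by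
    rw [hQ]; unfold coreIn; exact Subgroup.map_subtype_le _
  have hcen : ∀ q ∈ Qz, q * z = z * q := by
    intro q hq
    have := hle hq
    rw [Subgroup.mem_centralizer_iff] at this
    exact (this z rfl).symm
  have hmem : z ∈ Qz := by
    apply hC
    rw [Subgroup.mem_centralizer_iff]
    intro h hh
    exact hcen h hh
  have hne : z ≠ 1 := by
    intro h; rw [h, orderOf_one] at hz; norm_num at hz
  have hsq : z * z = 1 := by
    have := pow_orderOf_eq_one z
    rw [hz, pow_two] at this; exact this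
  obtain ⟨⟨hp, hfr, hcomm⟩, hcard⟩ := hE
  have hcenter : ∀ c : ↥Qz, c ∈ Subgroup.center ↥Qz → (c : G) = 1 ∨ (c : G) = z := by
    intro c hc
    have hzc : (⟨z, hmem⟩ : ↥Qz) ∈ Subgroup.center ↥Qz := by
      rw [Subgroup.mem_center_iff]
      intro g
      apply Subtype.ext
      exact hcen g g.2
    rw [Nat.card_eq_two_iff' (1 : Subgroup.center ↥Qz)] at hcard
    obtain ⟨y, hy, hyu⟩ := hcard
    by_cases h1 : (c : G) = 1
    · left; exact h1
    · right
      have e1 : (⟨c, hc⟩ : Subgroup.center ↥Qz) = y := hyu _ (by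
        intro h; apply h1
        have := congrArg (fun t : Subgroup.center ↥Qz => ((t : ↥Qz) : G)) h
        simpa using this)
      have e2 : (⟨⟨z, hmem⟩, hzc⟩ : Subgroup.center ↥Qz) = y := hyu _ (by
        intro h; apply hne
        have := congrArg (fun t : Subgroup.center ↥Qz => ((t : ↥Qz) : G)) h
        simpa using this)
      have := e1.trans e2.symm
      have := congrArg (fun t : Subgroup.center ↥Qz => ((t : ↥Qz) : G)) this
      simpa using this
  have hnormal : (Cfsg.pCore 2 ↥(Subgroup.centralizer ({z} : Set G))).Normal := by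
    unfold Cfsg.pCore
    exact Subgroup.sSup_normal _ (fun H hH => hH.1)
  refine ⟨hmem, hne, hsq, hcen, ?_, ?_, ?_, ?_, ?_, ?_⟩
  · intro a ha b hb
    have : ⁅(⟨a, ha⟩ : ↥Qz), ⟨b, hb⟩⁆ ∈ commutator ↥Qz := by
      rw [commutator_def]
      exact Subgroup.commutator_mem_commutator (Subgroup.mem_top _) (Subgroup.mem_top _)
    rw [hcomm] at this
    have := hcenter _ this
    simpa [commutatorElement_def] using this
  · intro a ha hc
    apply hcenter ⟨a, ha⟩
    rw [Subgroup.mem_center_iff]
    intro g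
    apply Subtype.ext
    exact (hc g g.2).symm
  · intro h hh q hq
    rw [hQ] at hq ⊢
    unfold coreIn at hq ⊢
    obtain ⟨q', hq', rfl⟩ := hq
    have hhC : h ∈ Subgroup.centralizer ({z} : Set G) := by
      rw [Subgroup.mem_centralizer_iff]
      intro y hy
      rw [Set.mem_singleton_iff] at hy
      rw [hy]; exact hh.symm
    refine ⟨⟨h, hhC⟩ * q' * ⟨h, hhC⟩⁻¹, hnormal.conj_mem q' hq' ⟨h, hhC⟩, rfl⟩
  · intro K h1 h2 h3
    have hKC : K ≤ Subgroup.centralizer ({z} : Set G) := by
      intro k hk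
      rw [Subgroup.mem_centralizer_iff]
      intro y hy
      rw [Set.mem_singleton_iff] at hy
      rw [hy]; exact (h1 k hk).symm
    have hN : (K.subgroupOf (Subgroup.centralizer ({z} : Set G))).Normal := by
      constructor
      intro n hn g
      rw [Subgroup.mem_subgroupOf] at hn ⊢
      have hg : (g : G) * z = z * (g : G) := by
        have := g.2
        rw [Subgroup.mem_centralizer_iff] at this
        exact (this z rfl).symm
      exact h2 g hg n hn
    have hP : IsPGroup 2 (K.subgroupOf (Subgroup.centralizer ({z} : Set G))) := by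
      intro k
      obtain ⟨m, hm⟩ := h3 (k : ↥(Subgroup.centralizer ({z} : Set G))) (Subgroup.mem_subgroupOf.1 k.2)
      refine ⟨m, ?_⟩
      apply Subtype.ext
      apply Subtype.ext
      simpa using hm
    have hle2 : K.subgroupOf (Subgroup.centralizer ({z} : Set G)) ≤ Cfsg.pCore 2 ↥(Subgroup.centralizer ({z} : Set G)) := by
      unfold Cfsg.pCore
      exact le_sSup ⟨hN, hP⟩
    have := Subgroup.map_mono (f := (Subgroup.centralizer ({z} : Set G)).subtype) hle2
    rw [Subgroup.subgroupOf_map_subtype, inf_eq_left.2 hKC] at this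
    rw [hQ]
    exact this
  · intro h hh
    apply hC
    rw [Subgroup.mem_centralizer_iff]
    intro q hq
    exact (hh q hq).symm
  · intro q hq
    obtain ⟨m, hm⟩ := hp ⟨q, hq⟩
    refine ⟨m, ?_⟩
    have := congrArg (fun t : ↥Qz => (t : G)) hm
    simpa using this

/-- The package `XL` is transported by automorphisms. -/
theorem XL.map {Qu : Subgroup G} {u : G} (h : XL Qu u) (φ : G ≃* G) :
    XL (Qu.map φ.toMonoidHom) (φ u) := by
  have hmem : ∀ y : G, y ∈ Qu.map φ.toMonoidHom ↔ φ.symm y ∈ Qu := fun y => Subgroup.mem_map_equiv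
  have hc : ∀ t : G, t * φ u = φ u * t → φ.symm t * u = u * φ.symm t := by
    intro t ht
    have := congrArg φ.symm ht
    simpa using this
  refine ⟨?_, ?_, ?_, ?_, ?_, ?_, ?_, ?_, ?_, ?_⟩
  · rw [hmem]; simpa using h.mem
  · intro e
    apply h.ne_one
    apply φ.injective
    rw [e, map_one]
  · rw [← map_mul, h.sq, map_one]
  · intro q hq
    rw [hmem] at hq
    have := congrArg φ (h.central hq)
    simpa using this
  · intro a ha b hb
    rw [hmem] at ha hb
    rcases h.comm ha hb with h1 | h1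
    · left
      have := congrArg φ h1
      simpa using this
    · right
      have := congrArg φ h1
      simpa using this
  · intro a ha hcomm
    rw [hmem] at ha
    have : ∀ b ∈ Qu, φ.symm a * b = b * φ.symm a := by
      intro b hb
      have hb' : φ b ∈ Qu.map φ.toMonoidHom := by rw [hmem]; simpa using hb
      have := congrArg φ.symm (hcomm (φ b) hb')
      simpa using this
    rcases h.center ha this with h1 | h1
    · left
      have := congrArg φ h1
      simpa using this
    · right
      have := congrArg φ h1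
      simpa using this
  · intro t ht q hq
    rw [hmem] at hq ⊢
    have := h.normal (hc t ht) hq
    simpa using this
  · intro K h1 h2 h3
    have hK : K.map φ.symm.toMonoidHom ≤ Qu := by
      have hmemK : ∀ y : G, y ∈ K.map φ.symm.toMonoidHom ↔ φ y ∈ K := by
        intro y
        rw [Subgroup.mem_map_equiv]; simp
      apply h.maximal
      · intro k hk
        rw [hmemK] at hk
        have := congrArg φ.symm (h1 _ hk)
        simpa using this
      · intro t ht k hk
        rw [hmemK] at hk ⊢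
        have ht' : φ t * φ u = φ u * φ t := by rw [← map_mul, ht, map_mul]
        have := h2 (φ t) ht' _ hk
        simpa using this
      · intro k hk
        rw [hmemK] at hk
        obtain ⟨m, hm⟩ := h3 _ hk
        refine ⟨m, ?_⟩
        apply φ.injective
        rw [map_pow, hm, map_one]
    intro k hk
    rw [hmem]
    apply hK
    rw [Subgroup.mem_map_equiv]
    simpa using hk
  · intro t ht
    rw [hmem]
    apply h.selfcent
    intro q hq
    have hq' : φ q ∈ Qu.map φ.toMonoidHom := by rw [hmem]; simpa using hq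
    have := congrArg φ.symm (ht (φ q) hq')
    simpa using this
  · intro q hq
    rw [hmem] at hq
    obtain ⟨m, hm⟩ := h.two hq
    refine ⟨m, ?_⟩
    apply φ.symm.injective
    rw [map_pow, hm, map_one]


/-- Duality in an extraspecial-like group, finite-set version: if `x` is not in the subgroup
generated by `u` and `S`, then some element of `Qu` centralizes `S` but not `x`. -/
theorem XL.dual_finset {Qu : Subgroup G} {u : G} (h : XL Qu u) (S : Finset G) :
    (∀ s ∈ S, s ∈ Qu) → ∀ x ∈ Qu, x ∉ Subgroup.closure (insert u (S : Set G)) →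
      ∃ g ∈ Qu, (∀ s ∈ S, g * s = s * g) ∧ g * x ≠ x * g := by
  classical
  induction S using Finset.induction_on with
  | empty =>
    intro _ x hx hxn
    have h1 : x ≠ 1 := by
      intro e; apply hxn; rw [e]; exact Subgroup.one_mem _
    have h2 : x ≠ u := by
      intro e; apply hxn; rw [e]; exact Subgroup.subset_closure (Set.mem_insert _ _)
    obtain ⟨q, hq, _, hne⟩ := h.exists_conj hx h1 h2
    exact ⟨q, hq, by simp, hne⟩
  | insert s S hs ih =>
    intro hS x hx hxn
    have hsQ : s ∈ Qu := hS s (Finset.mem_insert_self _ _)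
    have hS' : ∀ t ∈ S, t ∈ Qu := fun t ht => hS t (Finset.mem_insert_of_mem ht)
    have hsub : Subgroup.closure (insert u (S : Set G)) ≤
        Subgroup.closure (insert u ((insert s S : Finset G) : Set G)) := by
      apply Subgroup.closure_mono
      apply Set.insert_subset_insert
      intro t ht
      simp only [Finset.coe_insert]
      exact Set.mem_insert_of_mem _ ht
    have hsm : s ∈ Subgroup.closure (insert u ((insert s S : Finset G) : Set G)) := by
      apply Subgroup.subset_closure
      simp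
    obtain ⟨g₁, hg₁, hg₁S, hg₁x⟩ := ih hS' x hx (fun hc => hxn (hsub hc))
    by_cases hc : g₁ * s = s * g₁
    · refine ⟨g₁, hg₁, ?_, hg₁x⟩
      intro t ht
      rcases Finset.mem_insert.1 ht with rfl | ht
      · exact hc
      · exact hg₁S t ht
    · have hxs : x * s ∉ Subgroup.closure (insert u (S : Set G)) := by
        intro hcl
        apply hxn
        have := Subgroup.mul_mem _ (hsub hcl) (Subgroup.inv_mem _ hsm)
        simpa using this
      obtain ⟨g₃, hg₃, hg₃S, hg₃x⟩ := ih hS' (x * s) (Qu.mul_mem hx hsQ) hxs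
      by_cases hc3 : g₃ * s = s * g₃
      · refine ⟨g₃, hg₃, ?_, ?_⟩
        · intro t ht
          rcases Finset.mem_insert.1 ht with rfl | ht
          · exact hc3
          · exact hg₃S t ht
        · intro e
          apply hg₃x
          calc g₃ * (x * s) = (g₃ * x) * s := by group
            _ = x * g₃ * s := by rw [e]
            _ = x * (g₃ * s) := by group
            _ = x * (s * g₃) := by rw [hc3]
            _ = x * s * g₃ := by group
      · by_cases hx3 : g₃ * x = x * g₃
        · refine ⟨g₁ * g₃, Qu.mul_mem hg₁ hg₃, ?_, ?_⟩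
          · intro t ht
            rcases Finset.mem_insert.1 ht with rfl | ht
            · exact h.anti_mul hg₁ (h.anti hg₁ hsQ hc) (h.anti hg₃ hsQ hc3)
            · calc g₁ * g₃ * t = g₁ * (g₃ * t) := by group
                _ = g₁ * (t * g₃) := by rw [hg₃S t ht]
                _ = (g₁ * t) * g₃ := by group
                _ = t * g₁ * g₃ := by rw [hg₁S t ht]
                _ = t * (g₁ * g₃) := by group
          · intro e
            apply hg₁x
            have e' : g₁ * x * g₃ = x * g₁ * g₃ := by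
              calc g₁ * x * g₃ = g₁ * (x * g₃) := by group
                _ = g₁ * (g₃ * x) := by rw [hx3]
                _ = g₁ * g₃ * x := by group
                _ = x * (g₁ * g₃) := e
                _ = x * g₁ * g₃ := by group
            exact mul_right_cancel e'
        · exfalso
          exact hg₃x (h.anti_anti hx (h.anti hg₃ hx hx3) (h.anti hg₃ hsQ hc3))

/-- Duality in an extraspecial-like group: if `S ≤ Qu` is a subgroup containing `u` and `x ∈ Qu`
is not in `S`, then some element of `Qu` centralizes `S` but not `x`. -/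
theorem XL.dual [Finite G] {Qu : Subgroup G} {u : G} (h : XL Qu u) (S : Subgroup G) (hS : S ≤ Qu)
    (hu : u ∈ S) {x : G} (hx : x ∈ Qu) (hxS : x ∉ S) :
    ∃ g ∈ Qu, (∀ s ∈ S, g * s = s * g) ∧ g * x ≠ x * g := by
  classical
  have hfin : (S : Set G).Finite := Set.toFinite _
  have hcl : Subgroup.closure (insert u ((hfin.toFinset : Finset G) : Set G)) = S := by
    rw [Set.Finite.coe_toFinset, Set.insert_eq_of_mem (by exact hu), Subgroup.closure_eq]
  obtain ⟨g, hg, hgS, hgx⟩ := h.dual_finset hfin.toFinset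
    (fun s hs => hS ((Set.Finite.mem_toFinset hfin).1 hs)) x hx (by rw [hcl]; exact hxS)
  exact ⟨g, hg, fun s hs => hgS s ((Set.Finite.mem_toFinset hfin).2 hs), hgx⟩

/-- An element of `C(u)` acting trivially on `Qu / ⟨u⟩` lies in `Qu`. -/
theorem XL.mem_of_trivial_action {Qu : Subgroup G} {u : G} (h : XL Qu u) {t : G}
    (ht : t * u = u * t)
    (hact : ∀ q ∈ Qu, t * q * t⁻¹ * q⁻¹ = 1 ∨ t * q * t⁻¹ * q⁻¹ = u) : t ∈ Qu := by
  have hinvc : ∀ a : G, a * u = u * a → a⁻¹ * u = u * a⁻¹ := by
    intro a ha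
    calc a⁻¹ * u = a⁻¹ * (u * a) * a⁻¹ := by group
      _ = a⁻¹ * (a * u) * a⁻¹ := by rw [ha]
      _ = u * a⁻¹ := by group
  have hconjc : ∀ a : G, a * u = u * a → ∀ c : G, (c = 1 ∨ c = u) → a * c * a⁻¹ = c := by
    intro a ha c hc
    rcases hc with rfl | rfl
    · group
    · rw [ha]; group
  have hprod : ∀ c d : G, (c = 1 ∨ c = u) → (d = 1 ∨ d = u) → (c * d = 1 ∨ c * d = u) := by
    intro c d hc hd
    rcases hc with rfl | rfl <;> rcases hd with rfl | rfl
    · left; simp
    · right; simp
    · right; simp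
    · left; exact h.sq
  let K : Subgroup G :=
    { carrier := {a | a * u = u * a ∧ ∀ q ∈ Qu, a * q * a⁻¹ * q⁻¹ = 1 ∨ a * q * a⁻¹ * q⁻¹ = u}
      one_mem' := by
        refine ⟨by simp, fun q _ => ?_⟩
        left; group
      mul_mem' := by
        rintro a b ⟨ha, ha'⟩ ⟨hb, hb'⟩
        refine ⟨?_, fun q hq => ?_⟩
        · calc a * b * u = a * (b * u) := by group
            _ = a * (u * b) := by rw [hb]
            _ = (a * u) * b := by group
            _ = u * a * b := by rw [ha]
            _ = u * (a * b) := by group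
        · have e : a * b * q * (a * b)⁻¹ * q⁻¹ = (a * (b * q * b⁻¹ * q⁻¹) * a⁻¹) * (a * q * a⁻¹ * q⁻¹) := by
            group
          rw [e, hconjc a ha _ (hb' q hq)]
          exact hprod _ _ (hb' q hq) (ha' q hq)
      inv_mem' := by
        rintro a ⟨ha, ha'⟩
        refine ⟨hinvc a ha, fun q hq => ?_⟩
        have hq' : a⁻¹ * q * a ∈ Qu := by
          have := h.normal (hinvc a ha) hq
          simpa using this
        have e : a⁻¹ * q * a⁻¹⁻¹ * q⁻¹ = (a * (a⁻¹ * q * a) * a⁻¹ * (a⁻¹ * q * a)⁻¹)⁻¹ := by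
          group
        rw [e]
        rcases ha' _ hq' with e1 | e1 <;> rw [e1]
        · left; simp
        · right; exact h.inv_eq }
  have hK : K ≤ Qu := by
    apply h.maximal
    · intro k hk; exact hk.1
    · intro s hs k hk
      obtain ⟨hk1, hk2⟩ := hk
      refine ⟨?_, fun q hq => ?_⟩
      · calc s * k * s⁻¹ * u = s * k * (s⁻¹ * u) := by group
          _ = s * k * (u * s⁻¹) := by rw [hinvc s hs]
          _ = s * (k * u) * s⁻¹ := by group
          _ = s * (u * k) * s⁻¹ := by rw [hk1]
          _ = (s * u) * k * s⁻¹ := by group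
          _ = u * s * k * s⁻¹ := by rw [hs]
          _ = u * (s * k * s⁻¹) := by group
      · have hq' : s⁻¹ * q * s ∈ Qu := by
          have := h.normal (hinvc s hs) hq
          simpa using this
        have e : s * k * s⁻¹ * q * (s * k * s⁻¹)⁻¹ * q⁻¹
            = s * (k * (s⁻¹ * q * s) * k⁻¹ * (s⁻¹ * q * s)⁻¹) * s⁻¹ := by group
        rw [e, hconjc s hs _ (hk2 _ hq')]
        exact hk2 _ hq'
    · intro k hk
      obtain ⟨hk1, hk2⟩ := hk
      have hkk : k * k ∈ Qu := by
        apply h.selfcent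
        intro q hq
        have hc := hk2 q hq
        have e1 : k * q = (k * q * k⁻¹ * q⁻¹) * (q * k) := by group
        have hcc : (k * q * k⁻¹ * q⁻¹) * (k * q * k⁻¹ * q⁻¹) = 1 := by
          rcases hc with e | e <;> rw [e]
          · simp
          · exact h.sq
        have hck : k * (k * q * k⁻¹ * q⁻¹) = (k * q * k⁻¹ * q⁻¹) * k := by
          rcases hc with e | e <;> rw [e]
          · simp
          · exact hk1
        calc k * k * q = k * (k * q) := by group
          _ = k * ((k * q * k⁻¹ * q⁻¹) * (q * k)) := by rw [← e1]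
          _ = (k * (k * q * k⁻¹ * q⁻¹)) * (q * k) := by group
          _ = ((k * q * k⁻¹ * q⁻¹) * k) * (q * k) := by rw [hck]
          _ = (k * q * k⁻¹ * q⁻¹) * (k * q) * k := by group
          _ = (k * q * k⁻¹ * q⁻¹) * ((k * q * k⁻¹ * q⁻¹) * (q * k)) * k := by rw [← e1]
          _ = ((k * q * k⁻¹ * q⁻¹) * (k * q * k⁻¹ * q⁻¹)) * (q * k * k) := by group
          _ = q * (k * k) := by rw [hcc]; group
      obtain ⟨m, hm⟩ := h.two hkk
      refine ⟨m + 1, ?_⟩
      calc k ^ (2 ^ (m + 1)) = (k * k) ^ (2 ^ m) := by rw [pow_succ, pow_mul', pow_two]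
        _ = 1 := hm
  exact hK ⟨ht, hact⟩


/-- Conjugation-equivariance of the family `x ↦ O₂(C_G(x))` in the form used by the statements. -/
theorem setup_conj (Q : G → Subgroup G)
    (hQ : ∀ x : G, Q x = (Cfsg.pCore 2 ↥(Subgroup.centralizer ({x} : Set G))).map
      (Subgroup.centralizer ({x} : Set G)).subtype) (g x : G) :
    Q (g * x * g⁻¹) = (Q x).map (MulAut.conj g).toMonoidHom := by
  have h1 : Q (g * x * g⁻¹) = coreIn 2 (Subgroup.centralizer ({g * x * g⁻¹} : Set G)) := hQ _
  have h2 : Q x = coreIn 2 (Subgroup.centralizer ({x} : Set G)) := hQ _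
  rw [h1, h2, coreIn_centralizer_conj]

theorem setup_conj_mem (Q : G → Subgroup G)
    (hQ : ∀ x : G, Q x = (Cfsg.pCore 2 ↥(Subgroup.centralizer ({x} : Set G))).map
      (Subgroup.centralizer ({x} : Set G)).subtype) (g x : G) {y : G} (hy : y ∈ Q x) :
    g * y * g⁻¹ ∈ Q (g * x * g⁻¹) := by
  rw [setup_conj Q hQ g x]
  exact ⟨y, hy, rfl⟩

/-- In the setting of the "large extraspecial" statements, every conjugate `u` of `z` carries the
package `XL (Q u) u`. -/
theorem setup_XL (Q : G → Subgroup G)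
    (hQ : ∀ x : G, Q x = (Cfsg.pCore 2 ↥(Subgroup.centralizer ({x} : Set G))).map
      (Subgroup.centralizer ({x} : Set G)).subtype)
    (z : G) (hz : orderOf z = 2) (hE : Cfsg.IsExtraspecial 2 ↥(Q z))
    (hC : Subgroup.centralizer ((Q z : Subgroup G) : Set G) ≤ Q z) (g : G) :
    XL (Q (g * z * g⁻¹)) (g * z * g⁻¹) := by
  have h0 : XL (Q z) z := XL_of_hyp (Q z) z (hQ z) hz hE hC
  have h1 := h0.map (MulAut.conj g)
  rw [← setup_conj Q hQ g z] at h1
  exact h1

end Cfsg.Agent.H94
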