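import Cfsg.Agent.H94.LargeExtra

/-!
# Symmetry of orthogonality for large extraspecial 2-subgroups (helper94, for S5595)
-/

set_option autoImplicit false

namespace Cfsg.Agent.H94

variable {G : Type*} [Group G]

/-- The subgroup generated by two commuting involutions has at most four elements. -/
theorem closure_pair {z x : G} (hzz : z * z = 1) (hxx : x * x = 1) (hxz : x * z = z * x) :
    ∀ y ∈ Subgroup.closure ({z, x} : Set G), y = 1 ∨ y = z ∨ y = x ∨ y = z * x := by
  intro y hy
  have hzz' : ∀ w : G, z * (z * w) = w := fun w => by rw [← mul_assoc, hzz, one_mul]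
  have hxx' : ∀ w : G, x * (x * w) = w := fun w => by rw [← mul_assoc, hxx, one_mul]
  have hxz' : ∀ w : G, x * (z * w) = z * (x * w) := fun w => by rw [← mul_assoc, hxz, mul_assoc]
  have hzi : z⁻¹ = z := inv_eq_of_mul_eq_one_right hzz
  have hxi : x⁻¹ = x := inv_eq_of_mul_eq_one_right hxx
  induction hy using Subgroup.closure_induction with
  | mem t ht =>
    rcases ht with h | h
    · right; left; exact h
    · right; right; left; exact h
  | one => left; rfl
  | mul a b _ _ ha hb =>
    rcases ha with ha | ha | ha | ha <;> rcases hb with hb | hb | hb | hb <;> rw [ha, hb] <;>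
      simp [mul_assoc, hzz, hxx, hxz, hzz', hxx', hxz']
  | inv a _ ha =>
    rcases ha with ha | ha | ha | ha <;> rw [ha] <;> simp [hzi, hxi, hxz]

/-- Products of elements of `{1, x}` stay in `{1, x}` when `x` is an involution. -/
theorem pair_mul {x : G} (hxx : x * x = 1) {c d : G} (hc : c = 1 ∨ c = x) (hd : d = 1 ∨ d = x) :
    c * d = 1 ∨ c * d = x := by
  rcases hc with rfl | rfl <;> rcases hd with rfl | rfl
  · left; simp
  · right; simp
  · right; simp
  · left; exact hxx

theorem pair_inv {x : G} (hxx : x * x = 1) {c : G} (hc : c = 1 ∨ c = x) :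
    c⁻¹ = 1 ∨ c⁻¹ = x := by
  rcases hc with rfl | rfl
  · left; simp
  · right; exact inv_eq_of_mul_eq_one_right hxx

/-- Symmetry of orthogonality: if `x ∈ Qz` for two involutions `z`, `x` carrying the large
extraspecial package, and a swap of `z` and `x` would put `z` in `Qx`, then `z ∈ Qx`. -/
theorem large_symm {Qz Qx : Subgroup G} {z x : G} (hz : XL Qz z) (hx : XL Qx x) (hxz : x ∈ Qz)
    (hswap : ∀ s : G, s * z * s⁻¹ = x → s * x * s⁻¹ = z → z ∈ Qx) : z ∈ Qx := by
  by_contra hzx
  have hzz := hz.sq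
  have hxx := hx.sq
  have hxzc : x * z = z * x := hz.central hxz
  have hzinv := hz.inv_eq
  have hxinv := hx.inv_eq
  have hx1 : x ≠ 1 := hx.ne_one
  have hxnez : x ≠ z := by
    intro e
    apply hzx
    apply hswap 1
    · rw [e]; group
    · rw [e]; group
  obtain ⟨q', hq', hq'x, hq'ne⟩ := hz.exists_conj hxz hx1 hxnez
  have hq'z : q' * z = z * q' := hz.central hq'
  have hxq' : x * q' = z * (q' * x) := by rw [hq'x, hz.uu]
  by_cases hb : ∃ q ∈ Qx, q * z = z * x * q
  · obtain ⟨q, hq, hqz⟩ := hb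
    have hqx : q * x = x * q := hx.central hq
    apply hzx
    apply hswap (q' * q * q'⁻¹)
    · calc q' * q * q'⁻¹ * z * (q' * q * q'⁻¹)⁻¹
          = q' * q * (q'⁻¹ * (z * q')) * q⁻¹ * q'⁻¹ := by group
        _ = q' * q * (q'⁻¹ * (q' * z)) * q⁻¹ * q'⁻¹ := by rw [hq'z]
        _ = q' * (q * z) * q⁻¹ * q'⁻¹ := by group
        _ = q' * (z * x * q) * q⁻¹ * q'⁻¹ := by rw [hqz]
        _ = (q' * z) * (x * q'⁻¹) := by group
        _ = (z * q') * (x * q'⁻¹) := by rw [hq'z]
        _ = z * (q' * x) * q'⁻¹ := by group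
        _ = z * (z * (x * q')) * q'⁻¹ := by rw [hq'x]
        _ = (z * z) * x := by group
        _ = x := by rw [hzz, one_mul]
    · calc q' * q * q'⁻¹ * x * (q' * q * q'⁻¹)⁻¹
          = q' * q * q'⁻¹ * (x * q') * q⁻¹ * q'⁻¹ := by group
        _ = q' * q * q'⁻¹ * (z * (q' * x)) * q⁻¹ * q'⁻¹ := by rw [hxq']
        _ = q' * q * (q'⁻¹ * (z * q')) * x * q⁻¹ * q'⁻¹ := by group
        _ = q' * q * (q'⁻¹ * (q' * z)) * x * q⁻¹ * q'⁻¹ := by rw [hq'z]
        _ = q' * (q * z) * x * q⁻¹ * q'⁻¹ := by group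
        _ = q' * (z * x * q) * x * q⁻¹ * q'⁻¹ := by rw [hqz]
        _ = q' * z * x * (q * x) * q⁻¹ * q'⁻¹ := by group
        _ = q' * z * x * (x * q) * q⁻¹ * q'⁻¹ := by rw [hqx]
        _ = q' * z * (x * x) * q'⁻¹ := by group
        _ = (q' * z) * q'⁻¹ := by rw [hxx, mul_one]
        _ = (z * q') * q'⁻¹ := by rw [hq'z]
        _ = z := by group
  · push Not at hb
    have hzQx : ∀ q ∈ Qx, z * q * z⁻¹ ∈ Qx := fun q hq => hx.normal hxzc.symm hq
    -- (2.1) the intersection of `Qz` and `Qx` is `{1, x}`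
    have hD : ∀ d ∈ Qz, d ∈ Qx → d = 1 ∨ d = x := by
      intro d hdz hdx
      by_cases hcl : d ∈ Subgroup.closure (insert z ((({x} : Finset G)) : Set G))
      · rw [Finset.coe_singleton] at hcl
        rcases closure_pair hzz hxx hxzc d hcl with h | h | h | h
        · left; exact h
        · exfalso; apply hzx; rw [← h]; exact hdx
        · right; exact h
        · exfalso; apply hzx
          have : z = d * x := by rw [h, mul_assoc, hxx, mul_one]
          rw [this]; exact Qx.mul_mem hdx hx.mem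
      · obtain ⟨g, hg, hgS, hgd⟩ := hz.dual_finset {x} (by simpa using hxz) d hdz hcl
        have hgx : g * x = x * g := hgS x (by simp)
        have h1 := hz.anti hg hdz hgd
        exfalso; apply hzx
        have : z = (g * d * g⁻¹) * d⁻¹ := by rw [h1]; group
        rw [this]
        exact Qx.mul_mem (hx.normal hgx hdx) (Qx.inv_mem hdx)
    -- (2.2) commutators between `A = C_{Qx}(z)` and `B = C_{Qz}(x)` lie in `{1, x}`
    have hAB : ∀ a ∈ Qx, a * z = z * a → ∀ b ∈ Qz, b * x = x * b →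
        a * b * a⁻¹ * b⁻¹ = 1 ∨ a * b * a⁻¹ * b⁻¹ = x := by
      intro a ha haz b hb hbx
      apply hD
      · exact Qz.mul_mem (hz.normal haz hb) (Qz.inv_mem hb)
      · have : a * b * a⁻¹ * b⁻¹ = a * (b * a⁻¹ * b⁻¹) := by group
        rw [this]; exact Qx.mul_mem ha (hx.normal hbx (Qx.inv_mem ha))
    have hBA : ∀ a ∈ Qx, a * z = z * a → ∀ b ∈ Qz, b * x = x * b →
        b * a * b⁻¹ * a⁻¹ = 1 ∨ b * a * b⁻¹ * a⁻¹ = x := by
      intro a ha haz b hb hbx
      have e : b * a * b⁻¹ * a⁻¹ = (a * b * a⁻¹ * b⁻¹)⁻¹ := by group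
      rw [e]
      exact pair_inv hxx (hAB a ha haz b hb hbx)
    -- (2.3)
    have hA : ∀ q ∈ Qx, (q * z * q⁻¹ * z⁻¹ = 1 ∨ q * z * q⁻¹ * z⁻¹ = x) → q * z = z * q := by
      intro q hq h
      rcases h with h | h
      · have := (comm_expr q z 1).1 h; simpa using this
      · exfalso
        have := (comm_expr q z x).1 h
        apply hb q hq
        rw [this, ← mul_assoc, hxzc]
    -- (2.4)
    have hcA : ∀ q ∈ Qx, q * z * q⁻¹ * z⁻¹ ∈ Qx ∧
        (q * z * q⁻¹ * z⁻¹) * z = z * (q * z * q⁻¹ * z⁻¹) := by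
      intro q hq
      have hc : q * z * q⁻¹ * z⁻¹ ∈ Qx := by
        have : q * z * q⁻¹ * z⁻¹ = q * (z * q⁻¹ * z⁻¹) := by group
        rw [this]; exact Qx.mul_mem hq (hzQx _ (Qx.inv_mem hq))
      refine ⟨hc, ?_⟩
      apply hA _ hc
      have e1 : (q * z * q⁻¹ * z⁻¹) * z * (q * z * q⁻¹ * z⁻¹)⁻¹ * z⁻¹
          = q * z * q⁻¹ * z * q * z⁻¹ * q⁻¹ * z⁻¹ := by group
      have e2 : (q * z * q⁻¹ * z⁻¹) * (q * z * q⁻¹ * z⁻¹)
          = q * z * q⁻¹ * z⁻¹ * q * z * q⁻¹ * z⁻¹ := by group
      have e : (q * z * q⁻¹ * z⁻¹) * z * (q * z * q⁻¹ * z⁻¹)⁻¹ * z⁻¹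
          = (q * z * q⁻¹ * z⁻¹) * (q * z * q⁻¹ * z⁻¹) := by
        rw [e1, e2, hzinv]
      rw [e]; exact hx.sq_mem hc
    -- the subgroups `A` and `B`
    let A : Subgroup G :=
      { carrier := {a | a ∈ Qx ∧ a * z = z * a}
        one_mem' := ⟨Qx.one_mem, by simp⟩
        mul_mem' := by
          rintro a b ⟨ha, ha'⟩ ⟨hb, hb'⟩
          refine ⟨Qx.mul_mem ha hb, ?_⟩
          calc a * b * z = a * (b * z) := by group
            _ = a * (z * b) := by rw [hb']
            _ = (a * z) * b := by group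
            _ = z * a * b := by rw [ha']
            _ = z * (a * b) := by group
        inv_mem' := by
          rintro a ⟨ha, ha'⟩
          refine ⟨Qx.inv_mem ha, ?_⟩
          calc a⁻¹ * z = a⁻¹ * (z * a) * a⁻¹ := by group
            _ = a⁻¹ * (a * z) * a⁻¹ := by rw [ha']
            _ = z * a⁻¹ := by group }
    let B : Subgroup G :=
      { carrier := {b | b ∈ Qz ∧ b * x = x * b}
        one_mem' := ⟨Qz.one_mem, by simp⟩
        mul_mem' := by
          rintro a b ⟨ha, ha'⟩ ⟨hb, hb'⟩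
          refine ⟨Qz.mul_mem ha hb, ?_⟩
          calc a * b * x = a * (b * x) := by group
            _ = a * (x * b) := by rw [hb']
            _ = (a * x) * b := by group
            _ = x * a * b := by rw [ha']
            _ = x * (a * b) := by group
        inv_mem' := by
          rintro a ⟨ha, ha'⟩
          refine ⟨Qz.inv_mem ha, ?_⟩
          calc a⁻¹ * x = a⁻¹ * (x * a) * a⁻¹ := by group
            _ = a⁻¹ * (a * x) * a⁻¹ := by rw [ha']
            _ = x * a⁻¹ := by group }
    have hAmem : ∀ a : G, a ∈ A ↔ (a ∈ Qx ∧ a * z = z * a) := fun a => Iff.rfl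
    have hBmem : ∀ b : G, b ∈ B ↔ (b ∈ Qz ∧ b * x = x * b) := fun b => Iff.rfl
    -- (2.5) `[Qx, B] ≤ A`
    have he : ∀ q ∈ Qx, ∀ b ∈ B, b * q * b⁻¹ * q⁻¹ ∈ A := by
      intro q hq b hbB
      obtain ⟨hbz, hbx⟩ := (hBmem b).1 hbB
      have heQ : b * q * b⁻¹ * q⁻¹ ∈ Qx := Qx.mul_mem (hx.normal hbx hq) (Qx.inv_mem hq)
      refine (hAmem _).2 ⟨heQ, ?_⟩
      apply hA _ heQ
      -- a := z q z⁻¹ q⁻¹ ∈ A
      obtain ⟨hc, hcz⟩ := hcA q hq
      have haA : z * q * z⁻¹ * q⁻¹ ∈ A := by
        have e : z * q * z⁻¹ * q⁻¹ = (q * z * q⁻¹ * z⁻¹)⁻¹ := by group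
        rw [e]
        exact A.inv_mem ((hAmem _).2 ⟨hc, hcz⟩)
      obtain ⟨a, hadef⟩ : ∃ a, a = z * q * z⁻¹ * q⁻¹ := ⟨_, rfl⟩
      rw [← hadef] at haA
      obtain ⟨haQ, haz⟩ := (hAmem a).1 haA
      have hbzc : b * z = z * b := hz.central hbz
      have h1 : z * b * z⁻¹ = b := by rw [← hbzc]; group
      have h2 : z * q * z⁻¹ = a * q := by rw [hadef]; group
      have h3 : z * (b * q * b⁻¹ * q⁻¹) * z⁻¹
          = (z * b * z⁻¹) * (z * q * z⁻¹) * (z * b * z⁻¹)⁻¹ * (z * q * z⁻¹)⁻¹ := by group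
      rw [h1, h2] at h3
      have h4 : b * (a * q) * b⁻¹ * (a * q)⁻¹
          = (b * a * b⁻¹ * a⁻¹) * (a * (b * q * b⁻¹ * q⁻¹) * a⁻¹) := by group
      rw [h4] at h3
      have h5 : (b * q * b⁻¹ * q⁻¹) * z * (b * q * b⁻¹ * q⁻¹)⁻¹ * z⁻¹
          = (b * q * b⁻¹ * q⁻¹) * (z * (b * q * b⁻¹ * q⁻¹) * z⁻¹)⁻¹ := by group
      rw [h5, h3]
      have h6 : (b * q * b⁻¹ * q⁻¹) * ((b * a * b⁻¹ * a⁻¹) * (a * (b * q * b⁻¹ * q⁻¹) * a⁻¹))⁻¹
          = ((b * q * b⁻¹ * q⁻¹) * a * (b * q * b⁻¹ * q⁻¹)⁻¹ * a⁻¹) * (b * a * b⁻¹ * a⁻¹)⁻¹ := by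
        group
      rw [h6]
      exact pair_mul hxx (hx.comm heQ haQ) (pair_inv hxx (hBA a haQ haz b hbz hbx))
    -- (2.6) `B` is abelian
    have hBB : ∀ b ∈ B, ∀ b' ∈ B, b * b' = b' * b := by
      intro b hbB b' hb'B
      obtain ⟨hbz, hbx⟩ := (hBmem b).1 hbB
      obtain ⟨hb'z, hb'x⟩ := (hBmem b').1 hb'B
      by_contra hne
      have hanti := hz.anti hbz hb'z hne
      have hw : b * b' * b⁻¹ * b'⁻¹ = z := (comm_expr b b' z).2 hanti
      have hT : ∀ q ∈ Qx, (b * b') * q * (b * b')⁻¹ * ((b' * b) * q * (b' * b)⁻¹)⁻¹ = 1 ∨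
          (b * b') * q * (b * b')⁻¹ * ((b' * b) * q * (b' * b)⁻¹)⁻¹ = x := by
        intro q hq
        have ha' := he q hq b' hb'B
        have ha := he q hq b hbB
        obtain ⟨ha'Q, ha'z⟩ := (hAmem _).1 ha'
        obtain ⟨haQ, haz⟩ := (hAmem _).1 ha
        have e : (b * b') * q * (b * b')⁻¹ * ((b' * b) * q * (b' * b)⁻¹)⁻¹
            = (b * (b' * q * b'⁻¹ * q⁻¹) * b⁻¹ * (b' * q * b'⁻¹ * q⁻¹)⁻¹) *
              ((b' * q * b'⁻¹ * q⁻¹) * (b * q * b⁻¹ * q⁻¹) * (b' * q * b'⁻¹ * q⁻¹)⁻¹ *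
                (b * q * b⁻¹ * q⁻¹)⁻¹) *
              (b' * (b * q * b⁻¹ * q⁻¹) * b'⁻¹ * (b * q * b⁻¹ * q⁻¹)⁻¹)⁻¹ := by group
        rw [e]
        exact pair_mul hxx (pair_mul hxx (hBA _ ha'Q ha'z b hbz hbx) (hx.comm ha'Q haQ))
          (pair_inv hxx (hBA _ haQ haz b' hb'z hb'x))
      have hwx : (b * b' * b⁻¹ * b'⁻¹) * x = x * (b * b' * b⁻¹ * b'⁻¹) := by
        have := (B.mul_mem (B.mul_mem (B.mul_mem hbB hb'B) (B.inv_mem hbB)) (B.inv_mem hb'B))
        exact ((hBmem _).1 this).2
      have hwQx : b * b' * b⁻¹ * b'⁻¹ ∈ Qx := by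
        apply hx.mem_of_trivial_action hwx
        intro q hq
        have hb'b : (b' * b)⁻¹ * x = x * (b' * b)⁻¹ :=
          ((hBmem _).1 (B.inv_mem (B.mul_mem hb'B hbB))).2
        have hq1 : (b' * b)⁻¹ * q * (b' * b) ∈ Qx := by
          have := hx.normal hb'b hq
          simpa using this
        have := hT _ hq1
        have e : (b * b') * ((b' * b)⁻¹ * q * (b' * b)) * (b * b')⁻¹ *
            ((b' * b) * ((b' * b)⁻¹ * q * (b' * b)) * (b' * b)⁻¹)⁻¹
            = (b * b' * b⁻¹ * b'⁻¹) * q * (b * b' * b⁻¹ * b'⁻¹)⁻¹ * q⁻¹ := by group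
        rw [e] at this
        exact this
      apply hzx
      rw [← hw]
      exact hwQx
    -- (2.8) `B = {1, z, x, z x}`
    have hBcen : ∀ b ∈ B, b * q' = q' * b → b = 1 ∨ b = z := by
      intro b hbB hbq'
      obtain ⟨hbz, hbx⟩ := (hBmem b).1 hbB
      apply hz.center hbz
      intro y hy
      by_cases hyx : y * x = x * y
      · exact hBB b hbB y ((hBmem y).2 ⟨hy, hyx⟩)
      · have h1 := hz.anti hy hxz hyx
        have h3 := hz.anti_mul hy h1 hq'x
        have h4 := hBB b hbB (y * q') ((hBmem _).2 ⟨Qz.mul_mem hy hq', h3⟩)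
        have : b * y * q' = y * b * q' := by
          calc b * y * q' = b * (y * q') := by group
            _ = y * q' * b := h4
            _ = y * (q' * b) := by group
            _ = y * (b * q') := by rw [hbq']
            _ = y * b * q' := by group
        exact mul_right_cancel this
    have hB4 : ∀ b ∈ B, b = 1 ∨ b = z ∨ b = x ∨ b = z * x := by
      intro b hbB
      obtain ⟨hbz, hbx⟩ := (hBmem b).1 hbB
      by_cases hbq' : b * q' = q' * b
      · rcases hBcen b hbB hbq' with h | h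
        · left; exact h
        · right; left; exact h
      · have h1 := hz.anti hbz hq' hbq'
        have h3 := hz.anti_mul hbz h1 hxq'
        have hxB : x ∈ B := (hBmem x).2 ⟨hxz, rfl⟩
        have hbxB : b * x ∈ B := B.mul_mem hbB hxB
        rcases hBcen (b * x) hbxB h3 with h | h
        · right; right; left
          have : b = x⁻¹ := eq_inv_of_mul_eq_one_left h
          rw [this, hxinv]
        · right; right; right
          have : b = z * x⁻¹ := eq_mul_inv_of_mul_eq h
          rw [this, hxinv]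
    -- (2.8b) `A ≤ Qz`
    have hAQz : ∀ a ∈ A, a ∈ Qz := by
      intro a haA
      obtain ⟨haQ, haz⟩ := (hAmem a).1 haA
      have hax : a * x = x * a := hx.central haQ
      have hab : ∀ b ∈ B, a * b = b * a := by
        intro b hbB
        rcases hB4 b hbB with h | h | h | h <;> rw [h]
        · simp
        · exact haz
        · exact hax
        · calc a * (z * x) = (a * z) * x := by group
            _ = z * a * x := by rw [haz]
            _ = z * (a * x) := by group
            _ = z * (x * a) := by rw [hax]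
            _ = z * x * a := by group
      apply hz.mem_of_trivial_action haz
      intro q hq
      by_cases hqx : q * x = x * q
      · left
        have := hab q ((hBmem q).2 ⟨hq, hqx⟩)
        rw [this]; group
      · have h1 := hz.anti hq hxz hqx
        have hq1 : a * q * a⁻¹ ∈ Qz := hz.normal haz hq
        have hdQz : a * q * a⁻¹ * q⁻¹ ∈ Qz := Qz.mul_mem hq1 (Qz.inv_mem hq)
        -- `a q a⁻¹` anticommutes with `x`
        have hq1x : (a * q * a⁻¹) * x = z * (x * (a * q * a⁻¹)) := by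
          have hainvx : a⁻¹ * x = x * a⁻¹ := by
            calc a⁻¹ * x = a⁻¹ * (x * a) * a⁻¹ := by group
              _ = a⁻¹ * (a * x) * a⁻¹ := by rw [hax]
              _ = x * a⁻¹ := by group
          calc (a * q * a⁻¹) * x = a * q * (a⁻¹ * x) := by group
            _ = a * q * (x * a⁻¹) := by rw [hainvx]
            _ = a * (q * x) * a⁻¹ := by group
            _ = a * (z * (x * q)) * a⁻¹ := by rw [h1]
            _ = (a * z) * x * q * a⁻¹ := by group
            _ = (z * a) * x * q * a⁻¹ := by rw [haz]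
            _ = z * (a * x) * q * a⁻¹ := by group
            _ = z * (x * a) * q * a⁻¹ := by rw [hax]
            _ = z * (x * (a * q * a⁻¹)) := by group
        have hqinvx : q⁻¹ * x = z * (x * q⁻¹) := by
          have hzq : z * q⁻¹ = q⁻¹ * z := (hz.central (Qz.inv_mem hq)).symm
          calc q⁻¹ * x = q⁻¹ * (z * (z * x)) := by rw [hz.uu]
            _ = (q⁻¹ * z) * (z * (x * q)) * q⁻¹ := by group
            _ = (q⁻¹ * z) * (q * x) * q⁻¹ := by rw [← h1]
            _ = (z * q⁻¹) * (q * x) * q⁻¹ := by rw [hzq]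
            _ = z * (x * q⁻¹) := by group
        have hdx : (a * q * a⁻¹ * q⁻¹) * x = x * (a * q * a⁻¹ * q⁻¹) := by
          have := hz.anti_mul hq1 hq1x hqinvx
          exact this
        have hdB : a * q * a⁻¹ * q⁻¹ ∈ B := (hBmem _).2 ⟨hdQz, hdx⟩
        -- squares
        have hqq : (a * q * a⁻¹) * (a * q * a⁻¹) = q * q := by
          have e : (a * q * a⁻¹) * (a * q * a⁻¹) = a * (q * q) * a⁻¹ := by group
          rw [e]
          rcases hz.sq_mem hq with h | h <;> rw [h]
          · group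
          · rw [haz]; group
        have hxq2 : (x * q) * (x * q) = z * (q * q) := by
          calc (x * q) * (x * q) = x * (q * x) * q := by group
            _ = x * (z * (x * q)) * q := by rw [h1]
            _ = (x * z) * x * (q * q) := by group
            _ = (z * x) * x * (q * q) := by rw [hxzc]
            _ = z * (x * x) * (q * q) := by group
            _ = z * (q * q) := by rw [hxx, mul_one]
        have hzne : z * (q * q) ≠ q * q := by
          intro e
          apply hz.ne_one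
          have : z * (q * q) = 1 * (q * q) := by rw [e, one_mul]
          exact mul_right_cancel this
        rcases hB4 _ hdB with h | h | h | h
        · left; exact h
        · right; exact h
        · exfalso
          have hq1eq : a * q * a⁻¹ = x * q := by
            calc a * q * a⁻¹ = (a * q * a⁻¹ * q⁻¹) * q := by group
              _ = x * q := by rw [h]
          rw [hq1eq, hxq2] at hqq
          exact hzne hqq
        · exfalso
          have hq1eq : a * q * a⁻¹ = z * x * q := by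
            calc a * q * a⁻¹ = (a * q * a⁻¹ * q⁻¹) * q := by group
              _ = z * x * q := by rw [h]
          rw [hq1eq] at hqq
          have hzxq : z * (x * q) = (x * q) * z := (hz.central (Qz.mul_mem hxz hq)).symm
          have e2 : (z * x * q) * (z * x * q) = z * (q * q) := by
            calc (z * x * q) * (z * x * q) = (z * (x * q)) * z * (x * q) := by group
              _ = ((x * q) * z) * z * (x * q) := by rw [hzxq]
              _ = (x * q) * (z * z) * (x * q) := by group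
              _ = (x * q) * (x * q) := by rw [hzz, mul_one]
              _ = z * (q * q) := hxq2
          rw [e2] at hqq
          exact hzne hqq
    -- (2.9) conclusion
    have hall : ∀ q ∈ Qx, q = 1 ∨ q = x := by
      intro q hq
      obtain ⟨hc, hcz⟩ := hcA q hq
      have hcQz := hAQz _ ((hAmem _).2 ⟨hc, hcz⟩)
      have h1 := hD _ hcQz hc
      have h2 := hA q hq h1
      exact hD q (hAQz q ((hAmem q).2 ⟨hq, h2⟩)) hq
    apply hzx
    apply hx.selfcent
    intro q hq
    rcases hall q hq with h | h <;> rw [h]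
    · simp
    · exact hxzc.symm

end Cfsg.Agent.H94
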